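import Cfsg.Agent.H85.Pw.EBlk
import Cfsg.Agent.H85.Pw.TwoS
import Cfsg.Agent.H224.Pw.Six
import Cfsg.Agent.H224.Ore.Row

/-!
# Two fixed classes in `D.group K` (S4173)

* `tc_frame` : if every `v w`, `v ∈ U_J⁻`, `w ∈ U_J`, is a product of conjugates of `c₁` and `c₂` in the Levi subgroup,
  without fixed points on `V_J⁻` and `V_J`, then every `g ≠ 1` is a product of conjugates of `c₁` and `c₂`;
* `tc_E8`, `tc_E7` : `E₈(q)`, `E₇(q)`, `q ≥ 3`;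
* `tc_of_two` : two commuting blocks.
-/

set_option autoImplicit false
set_option linter.unusedSectionVars false

namespace Cfsg.Agent.H194.TC

open CoxeterSystem Cfsg.Agent.ChevalleyStructure.CoxeterGeom Cfsg.Agent.Tits.Roots Cfsg.Agent.Tits.Core
  Cfsg.Agent.Nodes.Reps Cfsg.Agent.Nodes.BNOf Cfsg.Agent.Nodes.RGDLib Cfsg.Agent.Nodes.Bruhat
  Cfsg.Agent.Nodes.OppDec Cfsg.Agent.Nodes.LeviDec Cfsg.Agent.Nodes.KindChev Cfsg.Agent.Nodes.ChevCls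
  Cfsg.Agent.OddHalf.NI.ModelChev
  Cfsg.Agent.H162.GaussDec Cfsg.Agent.H162.GaussLevi Cfsg.Agent.H162.GaussSL Cfsg.Agent.H162.GaussReg
  Cfsg.Agent.H162.GaussMain Cfsg.Agent.H162.GaussPQ Cfsg.Agent.H162.GaussExc
open Cfsg.Lie Cfsg.Agent.ChevalleyStructure Cfsg.Agent.ChevalleyStructure.Elts
  Cfsg.Agent.ChevalleyStructure.RootVec Cfsg.Agent.ChevalleyStructure.NPerm
  Cfsg.Agent.ChevalleyStructure.CoxeterGeomTypes Cfsg.Agent.Nodes.RGDChev Cfsg.Agent.KFacts.RgdChevCoord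
open Cfsg.Agent.H928.Ore.Frame (NF LP)
open Cfsg.Agent.H482.Ore.Fix (Bk Dz SimpB wt)
open Cfsg.Agent.H85.Ore Cfsg.Agent.H85.Pw
open Polynomial (X C)

universe u

/-- two conjugacy classes whose product contains all nonidentity elements -/
def TwoCl (G : Type*) [Group G] : Prop :=
  ∃ a b : G, ∀ g : G, g ≠ 1 → ∃ u v : G, g = (u * a * u⁻¹) * (v * b * v⁻¹)

section

variable {D : ChevalleyDatum} {l : ℕ} {M : CoxeterMatrix (Fin l)} (hp : IsType D l M) {K : Type u} [Field K] [Finite K]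
  (hl : 0 < l) (hG : IsSimpleGroup ↥(D.group K) ∧ ¬ IsMulCommutative ↥(D.group K))
  (hM : ∀ J : Finset (Fin l), J = ∅ ∨ J = Finset.univ ∨ ∃ a ∈ J, ∃ b, b ∉ J ∧ M a b ≠ 2)

include hp hl hG hM in
/-- **The frame.** -/
theorem tc_frame {J : Set (Fin l)} {c₁ c₂ : ↥(D.group K)}
    (h : ∀ v ∈ UNJ M.toCoxeterSystem hp.isCartan (XX D l K) J, ∀ w ∈ UJ M.toCoxeterSystem hp.isCartan (XX D l K) J,
      ∃ x y : ↥(D.group K), v * w = (x * c₁ * x⁻¹) * (y * c₂ * y⁻¹) ∧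
        LP M.toCoxeterSystem hp.isCartan (TT D K) (XX D l K) J (x * c₁ * x⁻¹) (y * c₂ * y⁻¹)) : TwoCl ↥(D.group K) := by
  obtain ⟨p, hpc⟩ := CharP.exists K
  have : Fact p.Prime := ⟨(CharP.char_is_prime_or_zero K p).resolve_right (CharP.char_ne_zero_of_finite K p)⟩
  have := finite_W hp M.toCoxeterSystem
  refine ⟨c₁, c₂, fun g hg => ?_⟩
  obtain ⟨a, b, x, y, ⟨⟨x', rfl⟩, ⟨y', rfl⟩⟩, e⟩ := Cfsg.Agent.H928.Ore.Frame.pair (rgd (K := K) hp M.toCoxeterSystem p)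
    (G1_eq_top hp _) (coord hp) (Cfsg.Agent.Nodes.ChevChart.irr_of hM) (J := J)
    (Pr := fun a b : ↥(D.group K) => (∃ x, a = x * c₁ * x⁻¹) ∧ ∃ y, b = y * c₂ * y⁻¹) (fun v hv w hw => by
      obtain ⟨x, y, h1, h2⟩ := h v hv w hw
      exact ⟨_, _, h1, h2, ⟨x, rfl⟩, ⟨y, rfl⟩⟩) (Cfsg.Agent.H224.Ore.Row.not_mem_core hl hG.1 p hp hg)
  exact ⟨x * x', y * y', by rw [e]; group⟩

end

/-! ### One block -/

section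

variable {D : ChevalleyDatum} {l : ℕ} {M : CoxeterMatrix (Fin l)} (hp : IsType D l M) {K : Type u} [Field K] [Finite K]
  (hl : 0 < l) (hG : IsSimpleGroup ↥(D.group K) ∧ ¬ IsMulCommutative ↥(D.group K))
  (hM : ∀ J : Finset (Fin l), J = ∅ ∨ J = Finset.univ ∨ ∃ a ∈ J, ∃ b, b ∉ J ∧ M a b ≠ 2)
  {J : List (Fin l)} {e : Fin l → ℤ} {ω : List (Fin l)} {n : ℕ} {r : Fin (n + 2) → Fin (n + 2) → ℕ}
  (TB : TabB D l J e ω n r)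
  {φ : Matrix.SpecialLinearGroup (Fin (n + 2)) K →* ↥(D.group K)} {s : Fin (n + 2) → Fin (n + 2) → K}
  (hs : ∀ a b, s a b ≠ 0)
  (hφ : ∀ a b (hab : a ≠ b) c, φ (Matrix.SpecialLinearGroup.transvection hab c) = xc hp (vec D l (r a b)) (s a b * c))
  {c₀ : Matrix.SpecialLinearGroup (Fin (n + 2)) K} (hc : OneClass hp K J φ c₀)

include hl hG hM TB hs hφ hc in
/-- **One block.** -/
theorem tc_of_blk : TwoCl ↥(D.group K) := by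
  refine tc_frame hp hl hG hM (J := {k | k ∈ J}) (c₁ := φ c₀) (c₂ := φ c₀⁻¹) fun v hv w hw => ?_
  obtain ⟨x, y, h1, h2⟩ := levi_pairs hp TB hs hφ hc hv hw
  refine ⟨φ x, φ y, ?_, ?_⟩
  · rw [h1, map_mul, map_mul, map_mul, map_mul, map_inv φ x, map_inv φ y]
  · rw [map_mul, map_mul, map_mul, map_mul, map_inv φ x, map_inv φ y] at h2
    exact h2

end

section

variable (K : Type u) [Field K] [Finite K] (hq : 3 ≤ Nat.card K)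

include hq in
/-- **`E₈(q)`, `q ≥ 3`** -/
theorem tc_E8 : TwoCl ↥(chevE8.group K) := by
  obtain ⟨φ, hφ⟩ := exists_phi8 K
  obtain ⟨c₀, ν, p, -, -, -, -, hc⟩ := exists_class8 K hq hφ
  exact tc_of_blk Cfsg.Agent.Nodes.KindE.isType8 (by norm_num) (Cfsg.Agent.S1054.result chevE8 (by simp))
    Cfsg.Agent.Nodes.ChevChart.irr8 tab8 (s := fun _ _ => ((-1 : ℤ) : K)) (fun _ _ => by simp) hφ hc

include hq in
/-- **`E₇(q)`, `q ≥ 3`** -/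
theorem tc_E7 : TwoCl ↥(chevE7.group K) := by
  obtain ⟨φ, hφ⟩ := exists_phi7 K
  obtain ⟨c₀, ν, p, -, -, -, -, hc⟩ := exists_class7 K hq hφ
  exact tc_of_blk Cfsg.Agent.Nodes.KindE.isType7 (by norm_num) (Cfsg.Agent.S1054.result chevE7 (by simp))
    Cfsg.Agent.Nodes.ChevChart.irr7 tab7 (s := fun _ _ => ((-1 : ℤ) : K)) (fun _ _ => by simp) hφ hc

end

/-! ### Two commuting blocks -/

section

variable {D : ChevalleyDatum} {l : ℕ} {M : CoxeterMatrix (Fin l)} (hp : IsType D l M) {J : List (Fin l)} {n₁ n₂ : ℕ}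
  {r₁ : Fin (n₁ + 2) → Fin (n₁ + 2) → ℕ} {r₂ : Fin (n₂ + 2) → Fin (n₂ + 2) → ℕ} {j₁ : Fin (n₁ + 1) → Fin l}
  {j₂ : Fin (n₂ + 1) → Fin l} {s₁ : Fin (n₁ + 2) → Fin (n₁ + 2) → ℤ}
  {s₂ : Fin (n₂ + 2) → Fin (n₂ + 2) → ℤ} (T₁ : TwoS.Tb hp J n₁ r₁ j₁ s₁) (T₂ : TwoS.Tb hp J n₂ r₂ j₂ s₂)
  (hsub : Sub2 D l J n₁ n₂ r₁ r₂) (hcom : Com2 D n₁ n₂ r₁ r₂)
  {K : Type u} [Field K] [Finite K]
  {φ₁ : Matrix.SpecialLinearGroup (Fin (n₁ + 2)) K →* ↥(D.group K)}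
  {φ₂ : Matrix.SpecialLinearGroup (Fin (n₂ + 2)) K →* ↥(D.group K)}
  (hφ₁ : ∀ a b (hab : a ≠ b) c, φ₁ (Matrix.SpecialLinearGroup.transvection hab c) =
    xc hp (vec D l (r₁ a b)) ((s₁ a b : K) * c))
  (hφ₂ : ∀ a b (hab : a ≠ b) c, φ₂ (Matrix.SpecialLinearGroup.transvection hab c) =
    xc hp (vec D l (r₂ a b)) ((s₂ a b : K) * c))
  {K' : Type} [Field K'] [Finite K'] (i : K →+* K')
  (hl : 0 < l) (hG : IsSimpleGroup ↥(D.group K) ∧ ¬ IsMulCommutative ↥(D.group K))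
  (hM : ∀ J : Finset (Fin l), J = ∅ ∨ J = Finset.univ ∨ ∃ a ∈ J, ∃ b, b ∉ J ∧ M a b ≠ 2)

include T₁ T₂ hsub hcom hφ₁ hφ₂ hl hG hM in
/-- **Two blocks.** -/
theorem tc_of_two (hK : 3 ≤ Nat.card K) {x₀ : Matrix.SpecialLinearGroup (Fin (n₁ + 2)) K}
    {y₀ : Matrix.SpecialLinearGroup (Fin (n₂ + 2)) K}
    (hx₀ : Cfsg.Agent.H150.MF.NiceM (x₀ : Matrix (Fin (n₁ + 2)) (Fin (n₁ + 2)) K))
    (hy₀ : Cfsg.Agent.H150.MF.NiceM (y₀ : Matrix (Fin (n₂ + 2)) (Fin (n₂ + 2)) K))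
    {lam : Fin (n₁ + 2) → K'} {mu : Fin (n₂ + 2) → K'} (hli : Function.Injective lam) (hmi : Function.Injective mu)
    (hlc : x₀.1.charpoly.map i = ∏ a, (X - C (lam a))) (hmc : y₀.1.charpoly.map i = ∏ a, (X - C (mu a)))
    (hout : ∀ q < D.nroots, (∃ k, k ∉ J ∧ vec D l q k ≠ 0) →
      (∏ b, lam b ^ Cfsg.Agent.H482.Ore.Fix.wt D j₁ q b) * ∏ b, mu b ^ Cfsg.Agent.H482.Ore.Fix.wt D j₂ q b ≠ 1) :
    TwoCl ↥(D.group K) := by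
  have hcm := TwoS.comm_phi₂ hp T₁ T₂ hcom hφ₁ hφ₂
  have e1 : Ev i (fun f => f = lam) x₀ := ⟨lam, rfl, hli, hlc⟩
  have e2 : Ev i (fun f => f = mu) y₀ := ⟨mu, rfl, hmi, hmc⟩
  have hconj : ∀ (g : Matrix.SpecialLinearGroup (Fin (n₁ + 2)) K) (h : Matrix.SpecialLinearGroup (Fin (n₂ + 2)) K),
      (φ₁ g * φ₂ h) * (φ₁ x₀ * φ₂ y₀) * (φ₁ g * φ₂ h)⁻¹ = φ₁ (g * x₀ * g⁻¹) * φ₂ (h * y₀ * h⁻¹) := by
    intro g h
    rw [map_mul, map_mul, map_mul, map_mul, map_inv, map_inv]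
    have h1 := hcm g⁻¹ h⁻¹
    rw [map_inv, map_inv] at h1
    calc (φ₁ g * φ₂ h) * (φ₁ x₀ * φ₂ y₀) * (φ₁ g * φ₂ h)⁻¹
        = φ₁ g * (φ₂ h * φ₁ x₀) * φ₂ y₀ * ((φ₂ h)⁻¹ * (φ₁ g)⁻¹) := by group
      _ = φ₁ g * φ₁ x₀ * (φ₂ (h * y₀) * (φ₁ g)⁻¹) * (φ₂ h)⁻¹ := by rw [← hcm x₀ h, ← h1, map_mul]; group
      _ = φ₁ g * φ₁ x₀ * ((φ₁ g)⁻¹ * φ₂ (h * y₀)) * (φ₂ h)⁻¹ := by rw [← map_inv φ₁, hcm g⁻¹ (h * y₀)]
      _ = _ := by rw [map_mul]; group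
  have hnf : ∀ (g : Matrix.SpecialLinearGroup (Fin (n₁ + 2)) K) (h : Matrix.SpecialLinearGroup (Fin (n₂ + 2)) K),
      NF (VJ M.toCoxeterSystem hp.isCartan (XX D l K) {k | k ∈ J}) (φ₁ (g * x₀ * g⁻¹) * φ₂ (h * y₀ * h⁻¹)) ∧
      NF (VNJ M.toCoxeterSystem hp.isCartan (XX D l K) {k | k ∈ J}) (φ₁ (g * x₀ * g⁻¹) * φ₂ (h * y₀ * h⁻¹)) :=
    fun g h => TwoS.nf₂ hp T₁ T₂ hcom hφ₁ hφ₂ i (E₁ := fun f => f = lam) (E₂ := fun f => f = mu)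
      (fun f hf f' hf' q hq hk => by subst hf; subst hf'; exact hout q hq hk)
      (Cfsg.Agent.H224.Pw.ev_conj i e1 g) (Cfsg.Agent.H224.Pw.ev_conj i e2 h)
  refine tc_frame hp hl hG hM (J := {k | k ∈ J}) (c₁ := φ₁ x₀ * φ₂ y₀) (c₂ := (φ₁ x₀ * φ₂ y₀)⁻¹) fun v hv w hw => ?_
  obtain ⟨L₁, hL₁, L₂, hL₂, rfl⟩ := TwoS.UNJ_mem₂ hp T₁ T₂ hsub hcom hφ₁ hφ₂ hv
  obtain ⟨U₁, hU₁, U₂, hU₂, rfl⟩ := TwoS.UJ_mem₂ hp T₁ T₂ hsub hcom hφ₁ hφ₂ hw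
  obtain ⟨g, h, d1⟩ := Cfsg.Agent.H150.MF.mf_lu hK (by omega) hx₀ hL₁ hU₁
  obtain ⟨g', h', d2⟩ := Cfsg.Agent.H150.MF.mf_lu hK (by omega) hy₀ hL₂ hU₂
  have hmem : ∀ (g : Matrix.SpecialLinearGroup (Fin (n₁ + 2)) K) (h : Matrix.SpecialLinearGroup (Fin (n₂ + 2)) K),
      φ₁ g * φ₂ h ∈ LJ M.toCoxeterSystem hp.isCartan (TT D K) (XX D l K) {k | k ∈ J} := fun g h =>
    mul_mem (TwoS.phi_mem₁ hp T₁ hφ₁ g) (TwoS.phi_mem₁ hp T₂ hφ₂ h)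
  have hinv : ∀ z : ↥(D.group K), z * (φ₁ x₀ * φ₂ y₀)⁻¹ * z⁻¹ = (z * (φ₁ x₀ * φ₂ y₀) * z⁻¹)⁻¹ := fun z => by group
  refine ⟨φ₁ g * φ₂ g', φ₁ h * φ₂ h', ?_, ?_⟩
  · rw [hinv, hconj, hconj]
    have d3 : h * x₀⁻¹ * h⁻¹ = (h * x₀ * h⁻¹)⁻¹ := by group
    have d4 : h' * y₀⁻¹ * h'⁻¹ = (h' * y₀ * h'⁻¹)⁻¹ := by group
    rw [d3] at d1
    rw [d4] at d2
    generalize h * x₀ * h⁻¹ = B at *
    generalize h' * y₀ * h'⁻¹ = B' at *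
    generalize g * x₀ * g⁻¹ = A at *
    generalize g' * y₀ * g'⁻¹ = A' at *
    calc φ₁ L₁ * φ₂ L₂ * (φ₁ U₁ * φ₂ U₂) = φ₁ L₁ * (φ₂ L₂ * φ₁ U₁) * φ₂ U₂ := by group
      _ = φ₁ L₁ * (φ₁ U₁ * φ₂ L₂) * φ₂ U₂ := by rw [hcm U₁ L₂]
      _ = φ₁ (L₁ * U₁) * φ₂ (L₂ * U₂) := by rw [map_mul, map_mul]; group
      _ = φ₁ A * (φ₁ B⁻¹ * φ₂ A') * φ₂ B'⁻¹ := by rw [d1, d2, map_mul, map_mul]; group
      _ = φ₁ A * (φ₂ A' * φ₁ B⁻¹) * φ₂ B'⁻¹ := by rw [hcm B⁻¹ A']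
      _ = φ₁ A * φ₂ A' * (φ₁ B⁻¹ * φ₂ B'⁻¹) := by group
      _ = φ₁ A * φ₂ A' * (φ₁ B * φ₂ B')⁻¹ := by rw [hcm B⁻¹ B'⁻¹, map_inv, map_inv, mul_inv_rev]
  · rw [hinv, hconj, hconj]
    exact ⟨by rw [← hconj]; exact mul_mem (mul_mem (hmem _ _) (hmem _ _)) (inv_mem (hmem _ _)),
      inv_mem (by rw [← hconj]; exact mul_mem (mul_mem (hmem _ _) (hmem _ _)) (inv_mem (hmem _ _))),
      (hnf g g').2, nf_inv (hnf h h').1⟩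

end

end Cfsg.Agent.H194.TC
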