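import Cfsg.Agent.H194.TC.SixThree
import Cfsg.Agent.H140.TC.Fam
import Cfsg.Agent.H584.Ore.ESixTC

/-!
# S4173: the row `E₆(q)`, all `q`
-/

set_option autoImplicit false

namespace Cfsg.Agent.H194.TC

open Cfsg.Lie

/-- **`E₆(q)`, all `q`** -/
theorem tc_e6 {S : Type*} [Group S] (h : Lie.IsoChevE6 S) : Cfsg.Agent.H140.TC.TC S := by
  obtain ⟨F, i1, i2, ⟨e⟩⟩ := h
  have h1 : 1 < Nat.card F := Finite.one_lt_card
  rcases Nat.lt_or_ge 2 (Nat.card F) with h | h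
  · exact Cfsg.Agent.H140.TC.TC.of_equiv e (tc_E6 F h)
  · exact Cfsg.Agent.H584.Ore.ESixTC.tc_iso (K := F) (le_antisymm h h1) e

end Cfsg.Agent.H194.TC
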