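import Cfsg.Agent.H194.TC.Frame
import Cfsg.Agent.H194.Pw.SixAll
import Cfsg.Agent.H224.Pw.Six

/-!
# Two fixed classes in `E₆(q)`, `q ≥ 4` (S4173)

* `exists_blk` : an element of `SL_{m+1}(K)` with the eigenvalues `ν, α, α^q, …, α^(q^(m-1))`;
* `hout` : the values of the roots outside the Levi subgroup of type `A₄ A₁`;
* `tc_E6_four` : `E₆(q)`, `q ≥ 4`.
-/

set_option autoImplicit false
set_option linter.unusedSectionVars false

namespace Cfsg.Agent.H194.TC

open Cfsg.Agent.Nodes.RGDChev Cfsg.Agent.Nodes.KindChev Cfsg.Agent.OddHalf.NI.ModelChev Cfsg.Agent.KFacts.RgdChevCoord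
open Cfsg.Lie Cfsg.Agent.ChevalleyStructure Cfsg.Agent.ChevalleyStructure.RootVec
  Cfsg.Agent.ChevalleyStructure.CoxeterGeomTypes
open Cfsg.Agent.H85.Pw Cfsg.Agent.H194.Pw
open Cfsg.Agent.H150.E6T (hp6)
open Polynomial (X C)

universe u

/-- the eigenvalues `ν, α, α^q, …` -/
def ev {K' : Type*} [Field K'] (q m : ℕ) (ν α : K') : Fin (m + 1) → K' := Fin.cons ν fun a : Fin m => α ^ q ^ (a : ℕ)

/-- an element of `SL_{m+1}(K)` with the eigenvalues `ν, α, α^q, …, α^(q^(m-1))` -/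
theorem exists_blk {K : Type u} [Field K] [Finite K] {K' : Type} [Field K'] [Finite K'] (i : K →+* K') {m : ℕ}
    (hm : 0 < m) {α : K'} (hα : α ^ Nat.card K ^ m = α) {ν : K}
    (hν : i ν * ∏ a : Fin m, α ^ Nat.card K ^ (a : ℕ) = 1) (hne : ∀ a : Fin m, i ν ≠ α ^ Nat.card K ^ (a : ℕ)) :
    ∃ x₀ : Matrix.SpecialLinearGroup (Fin (m + 1)) K,
      Cfsg.Agent.H150.MF.NiceM (x₀ : Matrix (Fin (m + 1)) (Fin (m + 1)) K) ∧
      x₀.1.charpoly.map i = ∏ a, (X - C (ev (Nat.card K) m (i ν) α a)) := by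
  obtain ⟨p, hpm, hpd, hpi⟩ := Cfsg.Agent.H224.Pw.exists_p i hm hα
  have hsp : ((X - C ν) * p).map i = ∏ a, (X - C (ev (Nat.card K) m (i ν) α a)) := by
    rw [Polynomial.map_mul, Polynomial.map_sub, Polynomial.map_X, Polynomial.map_C, hpi, Fin.prod_univ_succ]
    rfl
  obtain ⟨x₀, h1, h2⟩ := Cfsg.Agent.H150.MF.exists_niceM (n := m + 1) (ν := ν) hpm (by rw [hpd]) (by
    apply i.injective
    rw [← Polynomial.coeff_map, hsp, Polynomial.coeff_zero_eq_eval_zero, Polynomial.eval_prod]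
    simp only [Polynomial.eval_sub, Polynomial.eval_X, Polynomial.eval_C, zero_sub]
    have h2 : ∀ a : Fin (m + 1), -ev (Nat.card K) m (i ν) α a = (-1) * ev (Nat.card K) m (i ν) α a :=
      fun a => neg_eq_neg_one_mul _
    rw [Finset.prod_congr rfl fun a _ => h2 a, Finset.prod_mul_distrib, Finset.prod_const, Finset.card_univ,
      Fintype.card_fin, Fin.prod_univ_succ]
    change (-1 : K') ^ (m + 1) * (i ν * ∏ a : Fin m, α ^ Nat.card K ^ (a : ℕ)) = _
    rw [hν, mul_one, map_pow, map_neg, map_one]) (by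
    intro h
    have h3 : (p.map i).eval (i ν) = 0 := by rw [Polynomial.eval_map_apply, h, map_zero]
    rw [hpi, Polynomial.eval_prod, Finset.prod_eq_zero_iff] at h3
    obtain ⟨a, -, ha⟩ := h3
    rw [Polynomial.eval_sub, Polynomial.eval_X, Polynomial.eval_C, sub_eq_zero] at ha
    exact hne a ha)
  exact ⟨x₀, h2, by rw [h1, hsp]⟩

/-- a generator of the multiplicative group of the extension of degree `m` -/
theorem exists_gen (K : Type u) [Field K] [Finite K] (m : ℕ) [NeZero m] : ∃ (K' : Type) (_ : Field K') (_ : Finite K')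
    (_ : K →+* K') (z : K'), Nat.card K' = Nat.card K ^ m ∧ orderOf z = Nat.card K ^ m - 1 := by
  obtain ⟨ch, hch⟩ := CharP.exists K
  have hp : Fact ch.Prime := ⟨(CharP.char_is_prime_or_zero K ch).resolve_right (CharP.char_ne_zero_of_finite K ch)⟩
  have hK' : Nat.card (FiniteField.Extension K ch m) = Nat.card K ^ m := FiniteField.natCard_extension K ch m
  have : Fintype (FiniteField.Extension K ch m) := Fintype.ofFinite _
  obtain ⟨z, hz⟩ := IsCyclic.exists_ofOrder_eq_natCard (α := (FiniteField.Extension K ch m)ˣ)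
  refine ⟨FiniteField.Extension K ch m, inferInstance, inferInstance, algebraMap K _, (z : _), hK', ?_⟩
  rw [orderOf_units, hz, Nat.card_units, hK']

section

variable {K : Type u} [Field K] [Finite K] {K' : Type} [Field K'] [Finite K'] (i : K →+* K') {z : K'}

include i in
/-- small powers of the generator are not in `K` -/
theorem not_mem {m : ℕ} (hz : orderOf z = Nat.card K ^ m - 1) {e : ℕ} (h0 : 0 < e)
    (he : (Nat.card K - 1) * e < Nat.card K ^ m - 1) (x : K) : z ^ e ≠ i x := by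
  intro h
  have hq : 1 < Nat.card K := Finite.one_lt_card
  have hz0 : z ^ e ≠ 0 := by
    intro h1
    have h2 : z = 0 := by
      rwa [pow_eq_zero_iff h0.ne'] at h1
    rw [h2, orderOf_zero] at hz
    omega
  have hx : i x ^ (Nat.card K - 1) = 1 := by
    have h1 := Cfsg.Agent.H224.Pw.fix_range i x
    have h2 : i x ≠ 0 := h ▸ hz0
    have h3 : i x ^ (Nat.card K - 1) * i x = 1 * i x := by
      rw [← pow_succ, Nat.sub_add_cancel hq.le, h1, one_mul]
    exact mul_right_cancel₀ h2 h3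
  rw [← h, ← pow_mul, ← orderOf_dvd_iff_pow_eq_one, hz, mul_comm] at hx
  have h4 := Nat.le_of_dvd (Nat.mul_pos (by omega) h0) hx
  omega

end

section

variable {K' : Type} [Field K']

/-- the value on a block of type `A₁` -/
theorem two_val' {mu : Fin 2 → K'} (h1 : mu 0 * mu 1 = 1) (w : Fin 2 → ℤ) : ∏ b, mu b ^ w b = mu 0 ^ (w 0 - w 1) := by
  have h0 : mu 0 ≠ 0 := left_ne_zero_of_mul_eq_one h1
  have h2 : mu 1 = (mu 0)⁻¹ := eq_inv_of_mul_eq_one_right h1
  rw [Fin.prod_univ_two, h2, inv_zpow', ← zpow_add₀ h0, ← sub_eq_add_neg]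

/-- **the values of the roots outside the Levi subgroup of type `A₄ A₁`** -/
theorem hout {lam : Fin 5 → K'} (hl : ∏ a, lam a = 1) {mu : Fin 2 → K'} (hm : mu 0 * mu 1 = 1)
    (h1 : ∀ a, lam a ≠ 1) (h2 : ∀ a b, a < b → lam a * lam b * mu 0 ≠ 1) (h3 : ∀ a b, a < b → lam a * lam b * mu 1 ≠ 1)
    {q : ℕ} (hq : q < chevE6.nroots) (hk : ∃ k : Fin 6, k ∉ J5 ∧ vec chevE6 6 q k ≠ 0) :
    (∏ b, lam b ^ Cfsg.Agent.H482.Ore.Fix.wt chevE6 j5 q b) *
      ∏ b, mu b ^ Cfsg.Agent.H482.Ore.Fix.wt chevE6 j51 q b ≠ 1 := by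
  have h0 : ∀ k, lam k ≠ 0 := ne_zero_of_prod hl
  have hm1 : mu 1 = (mu 0)⁻¹ := eq_inv_of_mul_eq_one_right hm
  have hm0 : mu 0 ≠ 0 := left_ne_zero_of_mul_eq_one hm
  have hval : ∀ {a b : Fin 5}, ((∀ k, Cfsg.Agent.H482.Ore.Fix.wt chevE6 j5 q k = ind a b k - ind a b 4) ∨
      ∀ k, Cfsg.Agent.H482.Ore.Fix.wt chevE6 j5 q k = -ind a b k + ind a b 4) →
      ∏ k, lam k ^ Cfsg.Agent.H482.Ore.Fix.wt chevE6 j5 q k = (if a = b then lam a else lam a * lam b) ∨
      ∏ k, lam k ^ Cfsg.Agent.H482.Ore.Fix.wt chevE6 j5 q k = (if a = b then lam a else lam a * lam b)⁻¹ := by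
    intro a b hw
    rcases hw with hw | hw
    · exact .inl (prod_wt h0 hl hw)
    · right
      have h1 : ∏ k, lam k ^ (-Cfsg.Agent.H482.Ore.Fix.wt chevE6 j5 q k) = if a = b then lam a else lam a * lam b :=
        prod_wt (c := ind a b 4) h0 hl fun k => by rw [hw]; ring
      rw [← h1]
      simp only [zpow_neg]
      rw [Finset.prod_inv_distrib, inv_inv]
  rw [two_val' hm]
  rcases out51 q hq hk with ⟨a, b, hab, hw, hw'⟩ | ⟨a, hw, hw'⟩
  · have hv := hval hw
    rw [if_neg hab.ne] at hv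
    have h4 := h2 a b hab
    have h5 := h3 a b hab
    rw [hm1] at h5
    rcases hv with hv | hv <;> rcases hw' with hw' | hw' <;> rw [hv, hw']
    · rwa [zpow_one]
    · rwa [zpow_neg_one]
    · rw [zpow_one]
      intro h6
      apply h5
      rw [← inv_inv (lam a * lam b), ← mul_inv, h6, inv_one]
    · rw [zpow_neg_one]
      intro h6
      apply h4
      rw [← inv_inj, mul_inv, h6, inv_one]
  · have hv := hval hw
    rw [if_pos rfl] at hv
    rw [hw', zpow_zero, mul_one]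
    rcases hv with hv | hv
    · rw [hv]
      exact h1 a
    · rw [hv, ne_eq, inv_eq_one]
      exact h1 a

end

/-- **`E₆(q)`, `q ≥ 4`** -/
theorem tc_E6_four (K : Type u) [Field K] [Finite K] (hq : 4 ≤ Nat.card K) : TwoCl ↥(chevE6.group K) := by
  classical
  have : NeZero 4 := ⟨by norm_num⟩
  obtain ⟨K', _, _, i, z, hK', hz⟩ := exists_gen K 4
  obtain ⟨q, hqe⟩ : ∃ q, q = Nat.card K := ⟨_, rfl⟩
  -- the element of `K`
  obtain ⟨ξ, hξ0, hξ⟩ : ∃ ξ : K, ξ ≠ 0 ∧ ξ * ξ ≠ 1 := by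
    have : Fintype K := Fintype.ofFinite K
    by_contra hcon
    push Not at hcon
    have h1 : (Finset.univ : Finset K) ⊆ {0, 1, -1} := by
      intro x _
      by_cases hx : x = 0
      · simp [hx]
      · have h2 := hcon x hx
        rcases mul_self_eq_one_iff.1 h2 with h | h <;> simp [h]
    have h2 := Finset.card_le_card h1
    rw [Finset.card_univ, ← Nat.card_eq_fintype_card] at h2
    have h3 : ({0, 1, -1} : Finset K).card ≤ 3 := Finset.card_le_three
    omega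
  have hlt : ∀ {e : ℕ}, e ≤ q ^ 3 + q ^ 2 → (q - 1) * e < q ^ 4 - 1 := by
    intro e he
    have h1 : (q - 1) * e ≤ (q - 1) * (q ^ 3 + q ^ 2) := Nat.mul_le_mul_left _ he
    obtain ⟨k, rfl⟩ : ∃ k, q = k + 1 := ⟨q - 1, by omega⟩
    have h2 : 3 ≤ k := by omega
    have h3 : (k + 1) ^ 4 = (k + 1 - 1) * ((k + 1) ^ 3 + (k + 1) ^ 2) + (k + 1) ^ 2 := by
      rw [Nat.add_sub_cancel]; ring
    have h4 : 1 < (k + 1) ^ 2 := Nat.one_lt_pow (by norm_num) (by omega)
    omega
  have hpl : ∀ {a : ℕ}, a < 4 → q ^ a ≤ q ^ 3 := fun h => Nat.pow_le_pow_right (by omega) (by omega)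
  have hpl' : ∀ {a : ℕ}, a < 3 → q ^ a ≤ q ^ 2 := fun h => Nat.pow_le_pow_right (by omega) (by omega)
  have hnm : ∀ {e : ℕ}, 0 < e → e ≤ q ^ 3 + q ^ 2 → ∀ x : K, z ^ e ≠ i x := fun h0 he x =>
    not_mem i hz h0 (by rw [← hqe]; exact hlt he) x
  have hqp : ∀ a : ℕ, 0 < q ^ a := fun a => pow_pos (by omega) a
  have hz1 : z ^ (q ^ 4 - 1) = 1 := by rw [hqe, ← hz]; exact pow_orderOf_eq_one z
  have hz0 : z ≠ 0 := by
    intro h
    rw [h, orderOf_zero, ← hqe] at hz
    have := Nat.one_lt_pow (n := 4) (by norm_num) (show 1 < q by omega)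
    omega
  have hα : z ^ Nat.card K ^ 4 = z := by
    rw [← hqe]
    have h1 : q ^ 4 = (q ^ 4 - 1) + 1 := (Nat.sub_add_cancel (hqp 4)).symm
    rw [h1, pow_succ, hz1, one_mul]
  -- `ν`
  obtain ⟨ν, hν⟩ : ∃ ν : K, i ν = (∏ a : Fin 4, z ^ Nat.card K ^ (a : ℕ))⁻¹ := by
    apply Cfsg.Agent.H224.Pw.range_of_fix i
    rw [inv_pow, Fin.prod_univ_four]
    simp only [Fin.val_zero, Fin.val_one, Fin.val_two]
    change (((z ^ Nat.card K ^ 0 * z ^ Nat.card K ^ 1 * z ^ Nat.card K ^ 2 * z ^ Nat.card K ^ 3) ^ Nat.card K)⁻¹ : K') =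
      (z ^ Nat.card K ^ 0 * z ^ Nat.card K ^ 1 * z ^ Nat.card K ^ 2 * z ^ Nat.card K ^ 3)⁻¹
    congr 1
    rw [mul_pow, mul_pow, mul_pow, ← pow_mul, ← pow_mul, ← pow_mul, ← pow_mul, ← pow_succ, ← pow_succ, ← pow_succ,
      ← pow_succ, hα]
    ring
  have hν1 : i ν * ∏ a : Fin 4, z ^ Nat.card K ^ (a : ℕ) = 1 := by
    rw [hν, inv_mul_cancel₀]
    exact Finset.prod_ne_zero_iff.2 fun a _ => pow_ne_zero _ hz0
  have hνm : ∀ a : Fin 4, i ν ≠ z ^ Nat.card K ^ (a : ℕ) := by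
    intro a h
    rw [← hqe] at h
    exact hnm (hqp a) ((hpl a.2).trans (Nat.le_add_right _ _)) ν h.symm
  obtain ⟨x₀, hx1, hx2⟩ := exists_blk i (m := 4) (by norm_num) hα hν1 hνm
  obtain ⟨y₀, hy1, hy2⟩ := exists_blk i (m := 1) (by norm_num) (α := (i ξ)⁻¹) (ν := ξ)
    (by rw [pow_one, inv_pow, Cfsg.Agent.H224.Pw.fix_range])
    (by
      have h1 : i ξ ≠ 0 := by rwa [ne_eq, map_eq_zero]
      simp [h1])
    (by
      intro a h
      have h1 : i ξ ≠ 0 := by rwa [ne_eq, map_eq_zero]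
      have h2 : (a : ℕ) = 0 := by omega
      rw [h2, pow_zero, pow_one] at h
      apply hξ
      apply i.injective
      rw [map_mul, map_one]
      nth_rw 1 [h]
      exact inv_mul_cancel₀ h1)
  have hξi : i ξ ≠ 0 := by rwa [ne_eq, map_eq_zero]
  have hm0 : ev (Nat.card K) 1 (i ξ) (i ξ)⁻¹ 0 = i ξ := rfl
  have hm1 : ev (Nat.card K) 1 (i ξ) (i ξ)⁻¹ 1 = i ξ⁻¹ := by
    change (i ξ)⁻¹ ^ Nat.card K ^ ((0 : Fin 1) : ℕ) = _
    rw [Fin.val_zero, pow_zero, pow_one, map_inv₀]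
  have hl0 : ev (Nat.card K) 4 (i ν) z 0 = i ν := rfl
  have hls : ∀ a : Fin 4, ev (Nat.card K) 4 (i ν) z a.succ = z ^ q ^ (a : ℕ) := fun a => by rw [hqe]; rfl
  have hinj : Function.Injective (ev (Nat.card K) 4 (i ν) z) := by
    have key : ∀ a b : Fin 4, a < b → z ^ q ^ (a : ℕ) ≠ z ^ q ^ (b : ℕ) := by
      intro a b hab h1
      have hab' : (a : ℕ) < b := hab
      have hle : q ^ (a : ℕ) < q ^ (b : ℕ) := Nat.pow_lt_pow_right (by omega) hab'
      have h2 : z ^ (q ^ (b : ℕ) - q ^ (a : ℕ)) = 1 := by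
        have h3 : z ^ (q ^ (b : ℕ) - q ^ (a : ℕ)) * z ^ q ^ (a : ℕ) = 1 * z ^ q ^ (a : ℕ) := by
          rw [← pow_add, Nat.sub_add_cancel hle.le, one_mul]
          exact h1.symm
        exact mul_right_cancel₀ (pow_ne_zero _ hz0) h3
      exact hnm (e := q ^ (b : ℕ) - q ^ (a : ℕ)) (by omega)
        (((Nat.sub_le _ _).trans (hpl b.2)).trans (Nat.le_add_right _ _)) 1 (by rw [h2, map_one])
    intro a b hab
    refine Fin.cases ?_ (fun a => ?_) a hab
    · refine Fin.cases (fun _ => rfl) (fun b h => ?_) b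
      rw [hl0, hls] at h
      exact absurd h (by rw [hqe]; exact hνm b)
    · refine Fin.cases (fun h => ?_) (fun b h => ?_) b
      · rw [hl0, hls] at h
        exact absurd h.symm (by rw [hqe]; exact hνm a)
      · rw [hls, hls] at h
        by_contra hne
        have hne' : a ≠ b := fun h => hne (by rw [h])
        rcases lt_or_gt_of_ne hne' with h' | h'
        · exact key a b h' h
        · exact key b a h' h.symm
  have hpair : ∀ a b : Fin 5, a < b → ∀ x : K, ev (Nat.card K) 4 (i ν) z a * ev (Nat.card K) 4 (i ν) z b ≠ i x := by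
    intro a b hab x
    have hν0 : i ν ≠ 0 := left_ne_zero_of_mul_eq_one hν1
    revert hab
    refine Fin.cases ?_ (fun a => ?_) a
    · refine Fin.cases (fun h => absurd h (lt_irrefl _)) (fun b _ h => ?_) b
      rw [hl0, hls] at h
      refine hnm (hqp b) ((hpl b.2).trans (Nat.le_add_right _ _)) (ν⁻¹ * x) ?_
      rw [map_mul, map_inv₀, ← h, inv_mul_cancel_left₀ hν0]
    · refine Fin.cases (fun h => absurd h (Fin.not_lt_zero _)) (fun b hab h => ?_) b
      rw [hls, hls, ← pow_add] at h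
      have hab' : (a : ℕ) < b := by
        have := Fin.lt_def.1 hab
        simpa using this
      refine hnm (by have := hqp a; omega) ?_ x h
      have h1 := hpl b.2
      have h2 := hpl' (a := (a : ℕ)) (by omega)
      omega
  have hone : ∀ a, ev (Nat.card K) 4 (i ν) z a ≠ 1 := by
    refine Fin.cases ?_ (fun a h => ?_)
    · intro h
      rw [hl0] at h
      rw [h, one_mul, Finset.prod_pow_eq_pow_sum, Fin.sum_univ_four, ← orderOf_dvd_iff_pow_eq_one, hz, ← hqe] at hν1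
      have h1 := Nat.le_of_dvd (by
        change 0 < q ^ 0 + q ^ 1 + q ^ 2 + q ^ 3
        have := hqp 0
        omega) hν1
      change q ^ 4 - 1 ≤ q ^ 0 + q ^ 1 + q ^ 2 + q ^ 3 at h1
      have h2 : 4 * q ^ 3 ≤ q ^ 4 := by
        rw [pow_succ q 3, mul_comm (q ^ 3)]
        exact Nat.mul_le_mul_right _ (by omega)
      have h3 : q ^ 2 * 4 ≤ q ^ 3 := by
        rw [pow_succ q 2]
        exact Nat.mul_le_mul_left _ (by omega)
      have h4 : q ^ 1 * 4 ≤ q ^ 2 := by
        rw [pow_succ q 1]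
        exact Nat.mul_le_mul_left _ (by omega)
      rw [pow_one] at h1 h4
      rw [pow_zero] at h1
      omega
    · rw [hls] at h
      exact hnm (hqp a) ((hpl a.2).trans (Nat.le_add_right _ _)) 1 (by rw [h, map_one])
  have hprod : ∏ a, ev (Nat.card K) 4 (i ν) z a = 1 := by
    rw [Fin.prod_univ_succ]
    exact hν1
  obtain ⟨φ₁, hφ₁⟩ := exists_phi5 K
  obtain ⟨φ₂, hφ₂⟩ := Cfsg.Agent.H155.TG.exists_phi2 (K := K) hp6 5 (r := r51) (s := fun _ _ => 1)
    (ch51.2.2.2 0) ((ch51.2.2.1 0 1 (by decide)).trans (congrArg _ (ch51.2.2.2 0))) rfl rfl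
  refine tc_of_two hp6 T5 T1 sub51 com51 hφ₁ hφ₂ i (by norm_num)
    (Cfsg.Agent.S1054.result chevE6 (by simp)) Cfsg.Agent.Nodes.ChevChart.irr6 (by omega) hx1 hy1 hinj ?_ hx2 hy2
    fun q' hq' hk => hout hprod (by rw [hm0, hm1, map_inv₀, mul_inv_cancel₀ hξi]) hone ?_ ?_ hq' hk
  · intro a b hab
    by_contra hne
    have h1 : i ξ = i ξ⁻¹ := by
      rw [← hm0, ← hm1]
      revert hab hne
      refine Fin.cases ?_ (fun a => ?_) a <;> refine Fin.cases ?_ (fun b => ?_) b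
      · intro _ h; exact absurd rfl h
      · intro h _
        have : b = 0 := Subsingleton.elim _ _
        subst this
        exact h
      · intro h _
        have : a = 0 := Subsingleton.elim _ _
        subst this
        exact h.symm
      · intro _ h
        exact absurd (by rw [Subsingleton.elim a b]) h
    have h2 := i.injective h1
    apply hξ
    nth_rw 1 [h2]
    exact inv_mul_cancel₀ hξ0
  · intro a b hab h
    rw [hm0] at h
    refine hpair a b hab ξ⁻¹ ?_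
    rw [map_inv₀]
    exact eq_inv_of_mul_eq_one_left h
  · intro a b hab h
    rw [hm1, map_inv₀] at h
    refine hpair a b hab ξ ?_
    have := eq_inv_of_mul_eq_one_left h
    rwa [inv_inv] at this

end Cfsg.Agent.H194.TC
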