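import Cfsg.Agent.H194.TC.Six

/-!
# Two fixed classes in `E₆(3)` (S4173)

* `tc_of_torus` : one block of type `A` and an element of the torus that commutes with it;
* `tc_E6_three` : `E₆(3)`: the block `A₄` with the eigenvalues `1, α, α³, α⁹, α²⁷`, `α` of order `40`;
* `tc_E6` : `E₆(q)`, `q ≥ 3`.
-/

set_option autoImplicit false
set_option linter.unusedSectionVars false

namespace Cfsg.Agent.H194.TC

open CoxeterSystem Cfsg.Agent.ChevalleyStructure.CoxeterGeom Cfsg.Agent.Tits.Roots Cfsg.Agent.Tits.Core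
  Cfsg.Agent.Nodes.Reps Cfsg.Agent.Nodes.BNOf Cfsg.Agent.Nodes.RGDLib Cfsg.Agent.Nodes.Bruhat
  Cfsg.Agent.Nodes.OppDec Cfsg.Agent.Nodes.LeviDec Cfsg.Agent.Nodes.KindChev Cfsg.Agent.Nodes.ChevCls
  Cfsg.Agent.OddHalf.NI.ModelChev
  Cfsg.Agent.H162.GaussDec Cfsg.Agent.H162.GaussLevi Cfsg.Agent.H162.GaussSL Cfsg.Agent.H162.GaussReg
  Cfsg.Agent.H162.GaussMain Cfsg.Agent.H162.GaussPQ Cfsg.Agent.H162.GaussExc
open Cfsg.Lie Cfsg.Agent.ChevalleyStructure Cfsg.Agent.ChevalleyStructure.Elts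
  Cfsg.Agent.ChevalleyStructure.RootVec Cfsg.Agent.ChevalleyStructure.NPerm
  Cfsg.Agent.ChevalleyStructure.CoxeterGeomTypes Cfsg.Agent.Nodes.RGDChev Cfsg.Agent.KFacts.RgdChevCoord
open Cfsg.Agent.H928.Ore.Frame (NF LP)
open Cfsg.Agent.H482.Ore.Fix (Bk Dz SimpB)
open Cfsg.Agent.H85.Ore Cfsg.Agent.H85.Pw
open Cfsg.Agent.H150.E6T (hp6)
open Cfsg.Agent.H194.Pw (r5 s5 j5 simp5 rt5 ind prod_wt exists_phi5)
open Polynomial (X C)

universe u

/-- the roots of the Levi subgroup are the roots of the block -/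
def Sub1 (D : ChevalleyDatum) (l : ℕ) (J : List (Fin l)) (n : ℕ) (r : Fin (n + 2) → Fin (n + 2) → ℕ) : Prop :=
  ∀ q < D.nroots, (∀ k, k ∉ J → vec D l q k = 0) →
    ∃ a b, a ≠ b ∧ r a b = q ∧ (a < b → ∃ k, 0 < vec D l q k) ∧ (b < a → ∃ k, vec D l q k < 0)

instance decSub1 (D : ChevalleyDatum) (l : ℕ) (J : List (Fin l)) (n : ℕ) (r : Fin (n + 2) → Fin (n + 2) → ℕ) :
    Decidable (Sub1 D l J n r) := by
  unfold Sub1
  refine @Nat.decidableBallLT _ _ fun q _ => ?_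
  refine @instDecidableForall _ _ inferInstance ?_
  refine @Fintype.decidableExistsFintype _ _ (fun a => ?_) _
  refine @Fintype.decidableExistsFintype _ _ (fun b => ?_) _
  infer_instance

section

variable {D : ChevalleyDatum} {l : ℕ} {M : CoxeterMatrix (Fin l)} (hp : IsType D l M) {J : List (Fin l)} {n : ℕ}
  {r : Fin (n + 2) → Fin (n + 2) → ℕ} {j : Fin (n + 1) → Fin l} {s : Fin (n + 2) → Fin (n + 2) → ℤ}
  (T : TwoS.Tb hp J n r j s) (hsub : Sub1 D l J n r) {K : Type u} [Field K]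
  {φ : Matrix.SpecialLinearGroup (Fin (n + 2)) K →* ↥(D.group K)}
  (hφ : ∀ a b (hab : a ≠ b) c, φ (Matrix.SpecialLinearGroup.transvection hab c) =
    xc hp (vec D l (r a b)) ((s a b : K) * c))

include T hsub hφ

theorem up₁ {x : Fin l → ℤ} (hx : x ∈ Cfsg.Agent.Nodes.StabComb.PosJ M.toCoxeterSystem hp.isCartan {k | k ∈ J}) :
    XX D l K x ≤ (UT (n + 2) K).map φ := by
  have he : ∀ a b, (s a b : K) * (s a b : K) = 1 := fun a b => by rw [← Int.cast_mul, T.eps, Int.cast_one]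
  obtain ⟨q, hq, rfl⟩ := (isRoot_iff hp _ x).1 hx.1
  obtain ⟨a, b, hab, rfl, h1, h2⟩ := hsub q hq hx.2.2
  have hlt : a < b := by
    rcases lt_or_gt_of_ne hab with h | h
    · exact h
    · obtain ⟨k, hk⟩ := h2 h
      exact absurd (hx.2.1 k) (not_le.2 hk)
  intro y hy
  obtain ⟨c, rfl⟩ := (mem_XX hp hq y).1 hy
  refine ⟨Matrix.SpecialLinearGroup.transvection hab ((s a b : K) * c), tv_mem_UT hab hlt _, ?_⟩
  rw [hφ, ← mul_assoc, he, one_mul]

theorem lo₁ {x : Fin l → ℤ} (hx : x ∈ Cfsg.Agent.Nodes.StabComb.PosJ M.toCoxeterSystem hp.isCartan {k | k ∈ J}) :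
    XX D l K (-x) ≤ (LT (n + 2) K).map φ := by
  have he : ∀ a b, (s a b : K) * (s a b : K) = 1 := fun a b => by rw [← Int.cast_mul, T.eps, Int.cast_one]
  obtain ⟨q, hq, hqx⟩ := (isRoot_iff hp _ (-x)).1 hx.1.neg
  have hx' : ∀ k, vec D l q k = - x k := fun k => by rw [hqx, Pi.neg_apply]
  have hx0 : ∀ k, 0 ≤ x k := hx.2.1
  rw [← hqx]
  obtain ⟨a, b, hab, rfl, h1, h2⟩ := hsub q hq (fun k hk => by rw [hx', hx.2.2 k hk, neg_zero])
  have hlt : b < a := by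
    rcases lt_or_gt_of_ne hab with h | h
    · obtain ⟨k, hk⟩ := h1 h
      rw [hx'] at hk
      exact absurd hk (not_lt.2 (neg_nonpos.2 (hx0 k)))
    · exact h
  intro y hy
  obtain ⟨c, rfl⟩ := (mem_XX hp hq y).1 hy
  refine ⟨Matrix.SpecialLinearGroup.transvection hab ((s a b : K) * c), tv_mem_LT hab hlt _, ?_⟩
  rw [hφ, ← mul_assoc, he, one_mul]

theorem UJ_mem₁ {w : ↥(D.group K)} (hw : w ∈ UJ M.toCoxeterSystem hp.isCartan (XX D l K) {k | k ∈ J}) :
    ∃ U ∈ UT (n + 2) K, w = φ U := by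
  have h1 : UJ M.toCoxeterSystem hp.isCartan (XX D l K) {k | k ∈ J} ≤ (UT (n + 2) K).map φ :=
    RGD.Sup_le fun x hx => up₁ hp T hsub hφ hx
  obtain ⟨U, h2, rfl⟩ := h1 hw
  exact ⟨U, h2, rfl⟩

theorem UNJ_mem₁ {w : ↥(D.group K)} (hw : w ∈ UNJ M.toCoxeterSystem hp.isCartan (XX D l K) {k | k ∈ J}) :
    ∃ L ∈ LT (n + 2) K, w = φ L := by
  have h1 : UNJ M.toCoxeterSystem hp.isCartan (XX D l K) {k | k ∈ J} ≤ (LT (n + 2) K).map φ :=
    RGD.Sup_le fun x hx => by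
      have := lo₁ hp T hsub hφ (x := -x) hx
      rwa [_root_.neg_neg] at this
  obtain ⟨L, h2, rfl⟩ := h1 hw
  exact ⟨L, h2, rfl⟩

end

section

variable {D : ChevalleyDatum} {l : ℕ} {M : CoxeterMatrix (Fin l)} (hp : IsType D l M) {J : List (Fin l)} {n : ℕ}
  {r : Fin (n + 2) → Fin (n + 2) → ℕ} {j : Fin (n + 1) → Fin l} {s : Fin (n + 2) → Fin (n + 2) → ℤ}
  (T : TwoS.Tb hp J n r j s) (hsub : Sub1 D l J n r) {K : Type u} [Field K] [Finite K]
  {φ : Matrix.SpecialLinearGroup (Fin (n + 2)) K →* ↥(D.group K)}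
  (hφ : ∀ a b (hab : a ≠ b) c, φ (Matrix.SpecialLinearGroup.transvection hab c) =
    xc hp (vec D l (r a b)) ((s a b : K) * c))
  {K' : Type} [Field K'] [Finite K'] (i : K →+* K')
  (hl : 0 < l) (hG : IsSimpleGroup ↥(D.group K) ∧ ¬ IsMulCommutative ↥(D.group K))
  (hM : ∀ J : Finset (Fin l), J = ∅ ∨ J = Finset.univ ∨ ∃ a ∈ J, ∃ b, b ∉ J ∧ M a b ≠ 2)
  {s₀ : ↥(D.group K)} (h0 : s₀ ∈ TT D K) (h1 : ∀ a b, a ≠ b → ch hp (vec D l (r a b)) s₀ = 1)

include T hsub hφ hl hG hM h0 h1 in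
/-- **One block and an element of the torus.** -/
theorem tc_of_torus (hK : 3 ≤ Nat.card K) {x₀ : Matrix.SpecialLinearGroup (Fin (n + 2)) K}
    (hx₀ : Cfsg.Agent.H150.MF.NiceM (x₀ : Matrix (Fin (n + 2)) (Fin (n + 2)) K))
    {lam : Fin (n + 2) → K'} (hli : Function.Injective lam)
    (hlc : x₀.1.charpoly.map i = ∏ a, (X - C (lam a)))
    (hout : ∀ q < D.nroots, (∃ k, k ∉ J ∧ vec D l q k ≠ 0) →
      i (ch hp (vec D l q) s₀) * ∏ b, lam b ^ Cfsg.Agent.H482.Ore.Fix.wt D j q b ≠ 1) :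
    TwoCl ↥(D.group K) := by
  obtain ⟨ch', hch⟩ := CharP.exists K'
  have := Fintype.ofFinite K'
  have : Fact ch'.Prime := ⟨(CharP.char_is_prime_or_zero K' ch').resolve_right (CharP.char_ne_zero_of_finite K' ch')⟩
  have hcm : ∀ A, s₀ * φ A = φ A * s₀ := by
    intro A
    have h2 : (MulAut.conj s₀).toMonoidHom.comp φ = φ := by
      refine hom_ext fun a b hab c => ?_
      change s₀ * φ _ * s₀⁻¹ = φ _
      rw [hφ, (act hp (T.rlt a b hab) h0).2, h1 a b hab, one_mul]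
    have h3 := DFunLike.congr_fun h2 A
    change s₀ * φ A * s₀⁻¹ = φ A at h3
    exact mul_inv_eq_iff_eq_mul.1 h3
  obtain ⟨φ', B⟩ := TwoS.exists_Bk hp T hφ i
  have hconj : ∀ g : Matrix.SpecialLinearGroup (Fin (n + 2)) K,
      φ g * (s₀ * φ x₀) * (φ g)⁻¹ = s₀ * φ (g * x₀ * g⁻¹) := by
    intro g
    rw [map_mul, map_mul, map_inv, ← mul_assoc, ← hcm g]
    group
  have hnf : ∀ g : Matrix.SpecialLinearGroup (Fin (n + 2)) K,
      NF (VJ M.toCoxeterSystem hp.isCartan (XX D l K) {k | k ∈ J}) (s₀ * φ (g * x₀ * g⁻¹)) ∧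
      NF (VNJ M.toCoxeterSystem hp.isCartan (XX D l K) {k | k ∈ J}) (s₀ * φ (g * x₀ * g⁻¹)) := by
    intro g
    obtain ⟨h, hh⟩ := Cfsg.Agent.H934.MF.diag_map i (g * x₀ * g⁻¹).1 hli (by rw [charpoly_conj]; exact hlc)
    exact Cfsg.Agent.H482.Ore.Fix.nf_block hp ch' B h0 h1 hh hout
  have hTL : ∀ {x : ↥(D.group K)}, x ∈ TT D K →
      x ∈ LJ M.toCoxeterSystem hp.isCartan (TT D K) (XX D l K) {k | k ∈ J} := fun hx => T_le_LJ hx
  have hmem : ∀ g : Matrix.SpecialLinearGroup (Fin (n + 2)) K,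
      s₀ * φ g ∈ LJ M.toCoxeterSystem hp.isCartan (TT D K) (XX D l K) {k | k ∈ J} := fun g =>
    mul_mem (hTL h0) (TwoS.phi_mem₁ hp T hφ g)
  have hinv : ∀ z : ↥(D.group K), z * (s₀ * φ x₀)⁻¹ * z⁻¹ = (z * (s₀ * φ x₀) * z⁻¹)⁻¹ := fun z => by group
  refine tc_frame hp hl hG hM (J := {k | k ∈ J}) (c₁ := s₀ * φ x₀) (c₂ := (s₀ * φ x₀)⁻¹) fun v hv w hw => ?_
  obtain ⟨L, hL, rfl⟩ := UNJ_mem₁ hp T hsub hφ hv
  obtain ⟨U, hU, rfl⟩ := UJ_mem₁ hp T hsub hφ hw
  obtain ⟨g, h, d1⟩ := Cfsg.Agent.H150.MF.mf_lu hK (by omega) hx₀ hL hU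
  refine ⟨φ g, φ h, ?_, ?_⟩
  · rw [hinv, hconj, hconj]
    have d3 : h * x₀⁻¹ * h⁻¹ = (h * x₀ * h⁻¹)⁻¹ := by group
    rw [d3] at d1
    generalize h * x₀ * h⁻¹ = B at *
    generalize g * x₀ * g⁻¹ = A at *
    calc φ L * φ U = φ A * (φ B)⁻¹ := by rw [← map_mul, d1, map_mul, map_inv]
      _ = s₀ * φ A * s₀⁻¹ * (φ B)⁻¹ := by rw [hcm A, mul_inv_cancel_right]
      _ = s₀ * φ A * (s₀ * φ B)⁻¹ := by rw [hcm B, mul_inv_rev, mul_assoc (s₀ * φ A)]
  · rw [hinv, hconj, hconj]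
    exact ⟨hmem _, inv_mem (hmem _), (hnf g).2, nf_inv (hnf h).1⟩

end

/-! ### The tables -/

/-- the nodes of the Levi subgroup -/
def J4 : List (Fin 6) := [0, 1, 2, 3]

theorem ch4 : ∀ a b : Fin 5, a ≠ b → ∀ k : Fin 6, k ∉ J4 → vec chevE6 6 (r5 a b) k = 0 := by decide +kernel

theorem T4 : TwoS.Tb hp6 J4 3 r5 j5 s5 where
  eps := rt5.2.2.2.1
  sym := rt5.2.2.2.2.1
  up := simp5.1
  neg := rt5.2.2.2.2.2
  rlt := rt5.1
  rJ := ch4
  hom F _ := exists_phi5 F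

theorem sub4 : Sub1 chevE6 6 J4 3 r5 := by decide +kernel

/-- the element of the torus -/
def m4 : Fin 6 → ℤ := ![0, 1, 0, 0, 1, 0]

/-- the exponent of the torus element -/
def ex (q : ℕ) : ℤ := ∑ i : Fin 6, m4 i * chevE6.cartan i q

theorem ex_blk : ∀ a b : Fin 5, a ≠ b → ex (r5 a b) % 2 = 0 := by decide +kernel

/-- the weights of the roots outside the Levi subgroup -/
theorem out4 : ∀ q < chevE6.nroots, (∃ k : Fin 6, k ∉ J4 ∧ vec chevE6 6 q k ≠ 0) →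
    ((∀ k, Cfsg.Agent.H482.Ore.Fix.wt chevE6 j5 q k = 0) ∧ ex q % 2 = 1) ∨
    (∃ a b : Fin 5, a < b ∧ ((∀ k, Cfsg.Agent.H482.Ore.Fix.wt chevE6 j5 q k = ind a b k - ind a b 4) ∨
      ∀ k, Cfsg.Agent.H482.Ore.Fix.wt chevE6 j5 q k = -ind a b k + ind a b 4)) ∨
    ∃ a : Fin 5, ((∀ k, Cfsg.Agent.H482.Ore.Fix.wt chevE6 j5 q k = ind a a k - ind a a 4) ∨
      ∀ k, Cfsg.Agent.H482.Ore.Fix.wt chevE6 j5 q k = -ind a a k + ind a a 4) ∧ ex q % 2 = 1 := by
  intro q hq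
  revert q
  refine @of_decide_eq_true _ ?_ ?_
  · refine @Nat.decidableBallLT _ _ fun q _ => ?_
    refine @instDecidableForall _ _ inferInstance ?_
    refine @instDecidableOr _ _ inferInstance ?_
    refine @instDecidableOr _ _ ?_ ?_
    · refine @Fintype.decidableExistsFintype _ _ (fun a => ?_) _
      refine @Fintype.decidableExistsFintype _ _ (fun b => ?_) _
      infer_instance
    · refine @Fintype.decidableExistsFintype _ _ (fun a => ?_) _
      infer_instance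
  · decide +kernel

/-- **`E₆(3)`** -/
theorem tc_E6_three (K : Type u) [Field K] [Finite K] (hq : Nat.card K = 3) : TwoCl ↥(chevE6.group K) := by
  classical
  have : NeZero 4 := ⟨by norm_num⟩
  obtain ⟨K', _, _, i, z, hK', hz⟩ := exists_gen K 4
  rw [hq] at hK' hz
  have h2 : (2 : K') ≠ 0 := by
    intro h
    have : Fintype K' := Fintype.ofFinite K'
    have h3 : addOrderOf (1 : K') ∣ 2 := addOrderOf_dvd_of_nsmul_eq_zero (by rw [nsmul_one]; exact_mod_cast h)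
    have h4 : addOrderOf (1 : K') ∣ Nat.card K' := addOrderOf_dvd_natCard _
    rw [hK'] at h4
    have h5 : addOrderOf (1 : K') ∣ 1 := by
      have h6 := Nat.dvd_gcd h3 h4
      norm_num at h6
    rw [Nat.dvd_one, AddMonoid.addOrderOf_eq_one_iff] at h5
    exact one_ne_zero h5
  have hne : (-1 : K') ≠ 1 := by
    intro h
    apply h2
    have h3 : (1 : K') + 1 = 0 := by nth_rw 1 [← h]; exact neg_add_cancel 1
    rw [← one_add_one_eq_two, h3]
  have hd : ∀ e : ℕ, z ^ e = 1 ↔ 80 ∣ e := fun e => by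
    rw [← orderOf_dvd_iff_pow_eq_one, hz]
    norm_num
  have hd' : ∀ e : ℕ, z ^ e = -1 → 80 ∣ 2 * e := fun e h => by
    rw [← hd, mul_comm, pow_mul, h, neg_one_sq]
  obtain ⟨x₀, hx1, hx2⟩ := exists_blk i (m := 4) (by norm_num) (α := z ^ 2) (ν := 1)
    (by
      rw [hq, ← pow_mul]
      have h3 : 2 * 3 ^ 4 = 80 * 2 + 2 := by norm_num
      rw [h3, pow_add, (hd _).2 (Dvd.intro _ rfl), one_mul])
    (by
      rw [map_one, one_mul, hq, Fin.prod_univ_four]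
      change (z ^ 2) ^ 3 ^ 0 * (z ^ 2) ^ 3 ^ 1 * (z ^ 2) ^ 3 ^ 2 * (z ^ 2) ^ 3 ^ 3 = 1
      rw [← pow_mul, ← pow_mul, ← pow_mul, ← pow_mul, ← pow_add, ← pow_add, ← pow_add, hd]
      decide)
    (by
      intro a h
      rw [map_one, hq, ← pow_mul] at h
      have h3 := (hd _).1 h.symm
      revert h3
      fin_cases a <;> decide)
  rw [hq] at hx2
  have hl : ∀ b : Fin 5, ev 3 4 (i 1) (z ^ 2) b = z ^ (![0, 2, 6, 18, 54] : Fin 5 → ℕ) b := by
    intro b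
    refine Fin.cases ?_ (fun b => ?_) b
    · change i 1 = z ^ 0
      rw [map_one, pow_zero]
    · change (z ^ 2) ^ 3 ^ (b : ℕ) = _
      rw [← pow_mul]
      fin_cases b <;> rfl
  have hl' : ev 3 4 (i 1) (z ^ 2) = fun b => z ^ (![0, 2, 6, 18, 54] : Fin 5 → ℕ) b := funext hl
  rw [hl'] at hx2
  obtain ⟨lam, hlam⟩ : ∃ lam : Fin 5 → K', lam = fun b => z ^ (![0, 2, 6, 18, 54] : Fin 5 → ℕ) b := ⟨_, rfl⟩
  have hla : ∀ b, lam b = z ^ (![0, 2, 6, 18, 54] : Fin 5 → ℕ) b := fun b => by rw [hlam]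
  rw [← hlam] at hx2
  have hz0 : z ≠ 0 := by
    intro h
    rw [h, orderOf_zero] at hz
    norm_num at hz
  have h0 : ∀ k, lam k ≠ 0 := fun k => by rw [hla]; exact pow_ne_zero _ hz0
  have hprod : ∏ k, lam k = 1 := by
    rw [Fin.prod_univ_five, hla, hla, hla, hla, hla]
    change z ^ 0 * z ^ 2 * z ^ 6 * z ^ 18 * z ^ 54 = 1
    rw [← pow_add, ← pow_add, ← pow_add, ← pow_add, hd]
  have hinj : Function.Injective lam := by
    intro a b hab
    rw [hla, hla] at hab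
    by_contra hne
    have key : ∀ x y : ℕ, x < y → y < 80 → z ^ x ≠ z ^ y := by
      intro x y hxy hy h
      have h3 : z ^ (y - x) = 1 := by
        have h4 : z ^ (y - x) * z ^ x = 1 * z ^ x := by rw [← pow_add, Nat.sub_add_cancel hxy.le, one_mul, h]
        exact mul_right_cancel₀ (pow_ne_zero _ hz0) h4
      have h5 := Nat.le_of_dvd (by omega) ((hd _).1 h3)
      omega
    have hlt : ∀ a : Fin 5, (![0, 2, 6, 18, 54] : Fin 5 → ℕ) a < 80 := by decide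
    have hin : ∀ a b : Fin 5, a ≠ b → (![0, 2, 6, 18, 54] : Fin 5 → ℕ) a ≠ (![0, 2, 6, 18, 54] : Fin 5 → ℕ) b := by
      decide
    rcases lt_or_gt_of_ne (hin a b hne) with h | h
    · exact key _ _ h (hlt b) hab
    · exact key _ _ h (hlt a) hab.symm
  -- the products of two eigenvalues
  have hpair : ∀ a b : Fin 5, a < b → (lam a * lam b) * (lam a * lam b) ≠ 1 := by
    intro a b hab
    rw [hla, hla, ← pow_add, ← pow_add, ne_eq, hd]
    revert a b
    decide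
  have hsing : ∀ a : Fin 5, lam a ≠ -1 := by
    intro a h
    by_cases ha : a = 0
    · rw [ha, hla] at h
      change z ^ 0 = -1 at h
      rw [pow_zero] at h
      exact hne h.symm
    · rw [hla] at h
      have h3 := hd' _ h
      clear h
      revert a
      decide
  have hval : ∀ {q : ℕ} {a b : Fin 5}, ((∀ k, Cfsg.Agent.H482.Ore.Fix.wt chevE6 j5 q k = ind a b k - ind a b 4) ∨
      ∀ k, Cfsg.Agent.H482.Ore.Fix.wt chevE6 j5 q k = -ind a b k + ind a b 4) →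
      ∏ k, lam k ^ Cfsg.Agent.H482.Ore.Fix.wt chevE6 j5 q k = (if a = b then lam a else lam a * lam b) ∨
      ∏ k, lam k ^ Cfsg.Agent.H482.Ore.Fix.wt chevE6 j5 q k = (if a = b then lam a else lam a * lam b)⁻¹ := by
    intro q a b hw
    rcases hw with hw | hw
    · exact .inl (prod_wt h0 hprod hw)
    · right
      have h1 : ∏ k, lam k ^ (-Cfsg.Agent.H482.Ore.Fix.wt chevE6 j5 q k) = if a = b then lam a else lam a * lam b :=
        prod_wt (c := ind a b 4) h0 hprod fun k => by rw [hw]; ring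
      rw [← h1]
      simp only [zpow_neg]
      rw [Finset.prod_inv_distrib, inv_inv]
  -- the torus element
  have hch : ∀ q < chevE6.nroots, ch hp6 (vec chevE6 6 q) (sg hp6 m4 (-1 : Kˣ)) = (-1 : K) ^ ex q := by
    intro q hq
    rw [ch_sg hp6 m4 (-1 : Kˣ) hq, Units.val_zpow_eq_zpow_val, Units.val_neg, Units.val_one]
    rfl
  obtain ⟨φ, hφ⟩ := exists_phi5 K
  refine tc_of_torus hp6 T4 sub4 hφ i (by norm_num) (Cfsg.Agent.S1054.result chevE6 (by simp))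
    Cfsg.Agent.Nodes.ChevChart.irr6 (sg_mem hp6 m4 (-1 : Kˣ)) (fun a b hab => ?_) (by omega) hx1 hinj hx2
    fun q hq hk => ?_
  · rw [hch _ (rt5.1 a b hab)]
    exact Even.neg_one_zpow (Int.even_iff.2 (ex_blk a b hab))
  · rw [hch q hq, map_zpow₀, map_neg, map_one]
    have hpm : (-1 : K') ^ ex q = 1 ∨ (-1 : K') ^ ex q = -1 := by
      rcases Int.even_or_odd (ex q) with h | h
      · exact .inl (Even.neg_one_zpow h)
      · exact .inr (Odd.neg_one_zpow h)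
    rcases out4 q hq hk with ⟨hw, he⟩ | ⟨a, b, hab, hw⟩ | ⟨a, hw, he⟩
    · rw [Odd.neg_one_zpow (Int.odd_iff.2 he)]
      simp only [hw, zpow_zero, Finset.prod_const_one, mul_one]
      exact hne
    · have hv := hval hw
      rw [if_neg hab.ne] at hv
      intro h
      have h3 := congrArg (fun x : K' => x * x) h
      simp only [mul_one] at h3
      have h4 : (-1 : K') ^ ex q * (-1 : K') ^ ex q = 1 := by rcases hpm with h | h <;> rw [h] <;> simp
      rw [mul_mul_mul_comm, h4, one_mul] at h3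
      rcases hv with hv | hv
      · rw [hv] at h3
        exact hpair a b hab h3
      · rw [hv, ← mul_inv, inv_eq_one] at h3
        exact hpair a b hab h3
    · rw [Odd.neg_one_zpow (Int.odd_iff.2 he)]
      have hv := hval hw
      rw [if_pos rfl] at hv
      intro h
      rcases hv with hv | hv
      · rw [hv, neg_one_mul] at h
        exact hsing a (by rw [← h, _root_.neg_neg])
      · rw [hv, neg_one_mul, neg_eq_iff_eq_neg, inv_eq_iff_eq_inv] at h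
        exact hsing a (by rw [h, inv_neg, inv_one])

/-- **`E₆(q)`, `q ≥ 3`** -/
theorem tc_E6 (K : Type u) [Field K] [Finite K] (hq : 3 ≤ Nat.card K) : TwoCl ↥(chevE6.group K) := by
  rcases Nat.lt_or_ge 3 (Nat.card K) with h | h
  · exact tc_E6_four K h
  · exact tc_E6_three K (le_antisymm h hq)

end Cfsg.Agent.H194.TC
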